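import Cfsg.Agent.H530.CJ.Space
import Cfsg.Agent.H93.CJ.Orth
import Cfsg.Agent.H917.Conj.Basic
import Cfsg.Agent.ClassicalGeometry.OrthSemi

/-!
# S4792: the row `POmega⁺` (helper530)
-/

set_option autoImplicit false

namespace Cfsg.Agent.H530.CJ

open Cfsg QuadraticMap Module Cfsg.Agent.H430.Conj
open Cfsg.Agent.LieClassical.OrthCore Cfsg.Agent.LieClassical.OrthTrans Cfsg.Agent.H890.SpParity
open Cfsg.Agent.LieClassical.OrthFinite Cfsg.Agent.LieClassical.OrthForms
open Cfsg.Agent.ClassicalGeometry.OrthSemi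
open Cfsg.Agent.H122.OrthWt Cfsg.Agent.H122.OrthRep Cfsg.Agent.H122.OrthIso
open scoped commutatorElement

variable {F K : Type} [Field F] [Field K] [Algebra F K]

/-- the conjugation action on the Siegel group -/
theorem dg_sg (c : Fˣ) (α : Kˣ) (w : K × K) :
    dg (hd c) α * sg (tq F K) w = sg (tq F K) ((c : F) • (dw α : (K × K) ≃ₗ[F] (K × K)) w) * dg (hd c) α := by
  refine LinearEquiv.ext fun p => ?_
  show dg (hd c) α (sg (tq F K) w p) = sg (tq F K) ((c : F) • (dw α : (K × K) ≃ₗ[F] (K × K)) w) (dg (hd c) α p)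
  have h1 : ∀ q : VV F K, dg (hd c) α q = ((dw α : (K × K) ≃ₗ[F] (K × K)) q.1, (c : F) * q.2.1, ((c⁻¹ : Fˣ) : F) * q.2.2) := fun q => rfl
  have hcc : (c : F) * ((c⁻¹ : Fˣ) : F) = 1 := Units.mul_inv c
  rw [sg_apply, sg_apply, h1, h1]
  refine Prod.ext ?_ (Prod.ext ?_ rfl)
  · show dw α (p.1 + p.2.2 • w) = dw α p.1 + (((c⁻¹ : Fˣ) : F) * p.2.2) • (c : F) • dw α w
    rw [map_add, map_smul, smul_smul]
    congr 2
    linear_combination (-p.2.2) * hcc
  · show (c : F) * (p.2.1 - polar (tq F K) w p.1 - tq F K w * p.2.2) =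
      (c : F) * p.2.1 - polar (tq F K) ((c : F) • dw α w) (dw α p.1) -
        tq F K ((c : F) • dw α w) * (((c⁻¹ : Fˣ) : F) * p.2.2)
    rw [polar_smul_left, polar_map (dw_mem_O α), QuadraticMap.map_smul, dw_mem_O α w, smul_eq_mul, smul_eq_mul]
    linear_combination ((c : F) * tq F K w * p.2.2) * hcc

/-- elements swapping the two lines of the hyperbolic plane are not in `E` -/
theorem swap_not_mem [Finite F] [Finite K] {c : Fˣ} {α : Kˣ} (h : dg (hsw c) α ∈ E (HQ (tq F K))) : False := by
  have hfd : FiniteDimensional F K := inferInstance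
  have h1 := even_E (nondeg_HQ _ nondeg_tq) h
  have hcc : (c : F) * ((c⁻¹ : Fˣ) : F) = 1 := Units.mul_inv c
  have hmem : ∀ p : VV F K, p ∈ fix (dg (hsw c) α) ↔
      ((α * p.1.1, ((α⁻¹ : Kˣ) : K) * p.1.2), ((c : F) * p.2.2, ((c⁻¹ : Fˣ) : F) * p.2.1)) = p := fun p => by
    rw [mem_fix, dg_apply, hsw_apply]
  rw [finrank_VV] at h1
  by_cases hα : α = 1
  · let f : ((K × K) × F) →ₗ[F] VV F K :=
      { toFun := fun p => (p.1, ((c : F) * p.2, p.2))
        map_add' := fun p r => by
          refine Prod.ext rfl (Prod.ext ?_ rfl)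
          show (c : F) * (p.2 + r.2) = (c : F) * p.2 + (c : F) * r.2
          ring
        map_smul' := fun a p => by
          refine Prod.ext rfl (Prod.ext ?_ rfl)
          show (c : F) * (a * p.2) = a * ((c : F) * p.2)
          ring }
    have hf : Function.Injective f := fun p r hpr => by
      have e1 := congrArg Prod.fst hpr
      have e2 := congrArg (fun v : VV F K => v.2.2) hpr
      exact Prod.ext e1 e2
    have h2 : fix (dg (hsw c) α) = LinearMap.range f := by
      ext p
      rw [hmem, LinearMap.mem_range]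
      constructor
      · intro hp
        refine ⟨(p.1, p.2.2), Prod.ext rfl (Prod.ext ?_ rfl)⟩
        have e1 := congrArg (fun v : VV F K => v.2.1) hp
        exact e1
      · rintro ⟨r, rfl⟩
        rw [hα, inv_one, Units.val_one]
        refine Prod.ext (Prod.ext (one_mul _) (one_mul _)) (Prod.ext rfl ?_)
        show ((c⁻¹ : Fˣ) : F) * ((c : F) * r.2) = r.2
        linear_combination r.2 * hcc
    rw [h2, LinearMap.finrank_range_of_inj hf, finrank_prod, finrank_W, finrank_self] at h1
    obtain ⟨k, hk⟩ := h1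
    omega
  · have hα1 : (α : K) ≠ 1 := fun h => hα (Units.ext h)
    have hα2 : ((α⁻¹ : Kˣ) : K) ≠ 1 := fun h => hα (inv_eq_one.1 (Units.ext h))
    let f : F →ₗ[F] VV F K :=
      { toFun := fun y => (0, ((c : F) * y, y))
        map_add' := fun p r => by
          refine Prod.ext (add_zero _).symm (Prod.ext ?_ rfl)
          show (c : F) * (p + r) = (c : F) * p + (c : F) * r
          ring
        map_smul' := fun a p => by
          refine Prod.ext (smul_zero _).symm (Prod.ext ?_ rfl)
          show (c : F) * (a * p) = a * ((c : F) * p)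
          ring }
    have hf : Function.Injective f := fun p r hpr => congrArg (fun v : VV F K => v.2.2) hpr
    have h2 : fix (dg (hsw c) α) = LinearMap.range f := by
      ext p
      rw [hmem, LinearMap.mem_range]
      constructor
      · intro hp
        have e1 : (α : K) * p.1.1 = p.1.1 := congrArg (fun v : VV F K => v.1.1) hp
        have e2 : ((α⁻¹ : Kˣ) : K) * p.1.2 = p.1.2 := congrArg (fun v : VV F K => v.1.2) hp
        have e3 : p.1.1 = 0 := by
          have : ((α : K) - 1) * p.1.1 = 0 := by linear_combination e1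
          exact (mul_eq_zero.1 this).resolve_left (sub_ne_zero.2 hα1)
        have e4 : p.1.2 = 0 := by
          have : (((α⁻¹ : Kˣ) : K) - 1) * p.1.2 = 0 := by linear_combination e2
          exact (mul_eq_zero.1 this).resolve_left (sub_ne_zero.2 hα2)
        refine ⟨p.2.2, Prod.ext (Prod.ext e3.symm e4.symm) (Prod.ext ?_ rfl)⟩
        have e5 := congrArg (fun v : VV F K => v.2.1) hp
        exact e5
      · rintro ⟨r, rfl⟩
        refine Prod.ext (Prod.ext (mul_zero _) (mul_zero _)) (Prod.ext rfl ?_)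
        show ((c⁻¹ : Fˣ) : F) * ((c : F) * r) = r
        linear_combination r * hcc
    rw [h2, LinearMap.finrank_range_of_inj hf, finrank_self] at h1
    obtain ⟨k, hk⟩ := h1
    omega

/-- the torus element is in `E` -/
theorem dg_sq_mem (hG : Good (HQ (tq F K))) (u : Kˣ) : dg (1 : (F × F) ≃ₗ[F] (F × F)) (u ^ 2) ∈ E (HQ (tq F K)) := by
  let σ : VV F K ≃ₗ[F] VV F K := (LinearEquiv.prodComm F K K).prodCongr (LinearEquiv.refl F (F × F))
  have hσ : σ ∈ O (HQ (tq F K)) := by
    intro p
    rw [HQ_apply, HQ_apply, tq_apply, tq_apply]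
    show Algebra.trace F K (p.1.2 * p.1.1) + p.2.1 * p.2.2 = _
    rw [mul_comm p.1.2]
  have hu : dg (1 : (F × F) ≃ₗ[F] (F × F)) u ∈ O (HQ (tq F K)) := dg_mem_O (fun h => rfl) u
  have h1 : dg (1 : (F × F) ≃ₗ[F] (F × F)) (u ^ 2) = ⁅dg (1 : (F × F) ≃ₗ[F] (F × F)) u, σ⁆ := by
    rw [commutatorElement_def, eq_mul_inv_iff_mul_eq, eq_mul_inv_iff_mul_eq]
    refine LinearEquiv.ext fun p => Prod.ext (Prod.ext ?_ ?_) rfl
    · show ((u ^ 2 : Kˣ) : K) * (((u⁻¹ : Kˣ) : K) * p.1.2) = u * p.1.2
      rw [← mul_assoc, ← Units.val_mul]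
      congr 2
      group
    · show (((u ^ 2)⁻¹ : Kˣ) : K) * ((u : K) * p.1.1) = ((u⁻¹ : Kˣ) : K) * p.1.1
      rw [← mul_assoc, ← Units.val_mul]
      congr 2
      group
  rw [← hG.commutator_eq_E, h1]
  exact Subgroup.commutator_mem_commutator hu hσ

/-- central elements of `E` are scalars -/
theorem scalar_of_center {F V : Type*} [Field F] [AddCommGroup V] [Module F V] {Q : QuadraticForm F V}
    (hG : Good Q) {z : ↥(E Q)} (hz : z ∈ Subgroup.center ↥(E Q)) : ∃ a : F, a ≠ 0 ∧ ∀ v, z.1 v = a • v := by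
  have hiso : ∀ v, Q (z.1 v) = Q v := fun v => E_le_O z.2 v
  let M : Gam Q := ⟨z.1.toEquiv, RingEquiv.refl F, 1, one_ne_zero, fun u v => map_add z.1 u v,
    fun a v => map_smul z.1 a v, fun v => by rw [one_mul]; exact hiso v⟩
  have hM : conjE Q M = 1 := by
    ext k : 2
    show conjLin M k.1 = k.1
    ext v
    obtain ⟨v, rfl⟩ := M.1.surjective v
    rw [conjLin_apply']
    have h1 := (Subgroup.mem_center_iff.1 hz k)
    have h2 := LinearEquiv.congr_fun (congrArg Subtype.val h1) v
    exact h2.symm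
  exact exists_scalar_of_conjE hG M hM

/-- a nonzero element of given trace -/
theorem exists_trace [Finite F] [Finite K] (hn : 2 ≤ finrank F K) (c : F) : ∃ b : K, b ≠ 0 ∧ Algebra.trace F K b = c := by
  obtain ⟨b, hb⟩ := Algebra.trace_surjective F K c
  by_cases hb0 : b = 0
  · subst hb0
    have h1 := LinearMap.finrank_range_add_finrank_ker (Algebra.trace F K)
    have h2 : finrank F (LinearMap.range (Algebra.trace F K)) ≤ 1 := by
      have := Submodule.finrank_le (LinearMap.range (Algebra.trace F K))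
      rwa [finrank_self] at this
    have h3 : LinearMap.ker (Algebra.trace F K) ≠ ⊥ := by
      intro h
      rw [h, finrank_bot] at h1
      omega
    obtain ⟨x, hx, hx0⟩ := (Submodule.ne_bot_iff _).1 h3
    refine ⟨x, hx0, ?_⟩
    rw [← hb, map_zero]
    exact hx
  · exact ⟨b, hb0, hb⟩

/-- **The row** for `E (HQ tq)` modulo its centre. -/
theorem row_K [Finite F] [Finite K] (hn : 3 ≤ finrank F K) :
    Row (↥(E (HQ (tq F K))) ⧸ Subgroup.center ↥(E (HQ (tq F K)))) := by
  classical
  have := Fintype.ofFinite F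
  have := Fintype.ofFinite K
  have hfd : FiniteDimensional F K := inferInstance
  have hQ : Nondeg (tq F K) := nondeg_tq
  have hG : Good (HQ (tq F K)) := good_of_finite (nondeg_HQ _ hQ) (by rw [finrank_VV]; omega)
  have hG' : Good (tq F K) := good_of_finite hQ (by rw [finrank_W]; omega)
  obtain ⟨u, hu0, hu⟩ := exists_t (F := F) (E := K) hn
  let u' : Kˣ := Units.mk0 u hu0
  have hu' : Tor F ((u' ^ 2 : Kˣ) : K) := by
    rw [Units.val_pow_eq_pow_val]
    exact hu
  let x : E (HQ (tq F K)) := ⟨dg 1 (u' ^ 2), dg_sq_mem hG u'⟩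
  refine Cfsg.Agent.H93.CJ.row_orth hQ hG (transN_of_good _ hG') (QuotientGroup.mk' _)
    (QuotientGroup.mk'_surjective _) ?_
  intro l0 hl0
  obtain ⟨b, hb0, hb⟩ := exists_trace (F := F) (K := K) (by omega) (tq F K l0)
  refine ⟨x, (1, b), fun h => hb0 (congrArg Prod.snd h), ?_, ?_⟩
  · rw [← hb, tq_apply]
    show Algebra.trace F K (1 * b) = _
    rw [one_mul]
  intro c hc
  -- `c x = λ x c`
  have h1 : (x * c)⁻¹ * (c * x) ∈ Subgroup.center ↥(E (HQ (tq F K))) := by
    rw [← QuotientGroup.eq]
    exact hc.symm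
  obtain ⟨a, ha, haz⟩ := scalar_of_center hG h1
  have h2 : ∀ v, c.1 (x.1 v) = a • x.1 (c.1 v) := by
    intro v
    have h3 := haz v
    have h4 : c * x = x * c * ((x * c)⁻¹ * (c * x)) := by group
    have h5 := LinearEquiv.congr_fun (congrArg Subtype.val h4) v
    have h6 : c.1 (x.1 v) = x.1 (c.1 (((x * c)⁻¹ * (c * x) : E (HQ (tq F K))).1 v)) := h5
    rw [h6, h3, map_smul, map_smul]
  have ha1 : a = 1 := by
    set t : K := ((u' ^ 2 : Kˣ) : K) with ht
    have hti : (((u' ^ 2)⁻¹ : Kˣ) : K) = t⁻¹ := Units.val_inv_eq_inv_val _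
    set v : VV F K := c.1 ((0 : K × K), ((1 : F), (0 : F))) with hv
    have hv0 : v ≠ 0 := by
      rw [hv]
      intro h
      rw [LinearEquiv.map_eq_zero_iff] at h
      exact one_ne_zero (congrArg (fun v : VV F K => v.2.1) h)
    have h3 := h2 ((0 : K × K), ((1 : F), (0 : F)))
    have h4 : x.1 ((0 : K × K), ((1 : F), (0 : F))) = ((0 : K × K), ((1 : F), (0 : F))) := by
      show dg 1 (u' ^ 2) _ = _
      rw [dg_apply]
      exact Prod.ext (Prod.ext (mul_zero _) (mul_zero _)) rfl
    rw [h4, ← hv] at h3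
    have h5 : x.1 v = ((t * v.1.1, t⁻¹ * v.1.2), v.2) := by
      show dg 1 (u' ^ 2) _ = _
      rw [dg_apply, hti]
      rfl
    rw [h5] at h3
    have e1 : v.1.1 = a • (t * v.1.1) := congrArg (fun v : VV F K => v.1.1) h3
    have e2 : v.1.2 = a • (t⁻¹ * v.1.2) := congrArg (fun v : VV F K => v.1.2) h3
    have e3 : v.2.1 = a * v.2.1 := congrArg (fun v : VV F K => v.2.1) h3
    have e4 : v.2.2 = a * v.2.2 := congrArg (fun v : VV F K => v.2.2) h3
    have haK : algebraMap F K a ≠ 0 := (map_ne_zero _).2 ha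
    have ht0 : t ≠ 0 := hu'.ne
    have f1 : v.1.1 = 0 := by
      by_contra hne
      apply hu'.not_mem (by omega) a⁻¹
      rw [Algebra.smul_def] at e1
      rw [map_inv₀]
      apply eq_inv_of_mul_eq_one_left
      apply mul_right_cancel₀ hne
      linear_combination -e1
    have f2 : v.1.2 = 0 := by
      by_contra hne
      apply hu'.not_mem (by omega) a
      rw [Algebra.smul_def] at e2
      have e5 : algebraMap F K a * t⁻¹ = 1 := by
        apply mul_right_cancel₀ hne
        linear_combination -e2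
      field_simp at e5
      exact e5.symm
    by_contra ha1
    have ha2 : (a - 1) ≠ 0 := sub_ne_zero.2 ha1
    apply hv0
    refine Prod.ext (Prod.ext f1 f2) (Prod.ext ?_ ?_)
    · apply mul_left_cancel₀ ha2
      show (a - 1) * v.2.1 = (a - 1) * 0
      linear_combination -e3
    · apply mul_left_cancel₀ ha2
      show (a - 1) * v.2.2 = (a - 1) * 0
      linear_combination -e4
  have hcomm : c.1 * dg 1 (u' ^ 2) = dg 1 (u' ^ 2) * c.1 := by
    refine LinearEquiv.ext fun v => ?_
    have h3 := h2 v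
    rw [ha1, one_smul] at h3
    exact h3
  obtain ⟨α, ⟨s, hs⟩ | ⟨s, hs⟩⟩ := cent (by omega) hu' (E_le_O c.2) hcomm
  · refine ⟨s, s.ne_zero, dw α, dw_mem_O α, ?_, ?_⟩
    · intro w
      apply Subtype.ext
      show c.1 * sg (tq F K) w = sg (tq F K) ((s : F) • (dw α : (K × K) ≃ₗ[F] (K × K)) w) * c.1
      rw [hs]
      exact dg_sg s α w
    · intro hfix
      have hsK : algebraMap F K s ≠ 0 := (map_ne_zero _).2 s.ne_zero
      have e1 : ((s : F)⁻¹ • ((α : K) * 1), (s : F)⁻¹ • (((α⁻¹ : Kˣ) : K) * b)) = ((1 : K), b) := hfix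
      have e2 := congrArg Prod.fst e1
      have e3 := congrArg Prod.snd e1
      simp only [Algebra.smul_def, map_inv₀, mul_one] at e2 e3
      have e4 : (α : K) = algebraMap F K s := by
        field_simp at e2
        exact e2
      have e5 : ((α⁻¹ : Kˣ) : K) = algebraMap F K s := by
        have e6 : (algebraMap F K s)⁻¹ * ((α⁻¹ : Kˣ) : K) = 1 := by
          apply mul_right_cancel₀ hb0
          linear_combination e3
        field_simp at e6
        exact e6
      have e7 : (s : F) * s = 1 := by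
        apply (algebraMap F K).injective
        rw [map_mul, map_one]
        nth_rw 1 [← e4]
        rw [← e5, Units.mul_inv]
      have e8 : ((s⁻¹ : Fˣ) : F) = s := by
        rw [Units.val_inv_eq_inv_val]
        exact inv_eq_of_mul_eq_one_right e7
      have hcs : ∀ v, c.1 v = (s : F) • v := by
        intro v
        rw [hs, dg_apply, hd_apply, e4, e5, e8]
        refine Prod.ext (Prod.ext ?_ ?_) rfl
        · exact (Algebra.smul_def _ _).symm
        · exact (Algebra.smul_def _ _).symm
      refine ⟨c, ?_, 0, ?_, ?_⟩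
      · rw [QuotientGroup.ker_mk', Subgroup.mem_center_iff]
        intro g
        apply Subtype.ext
        refine LinearEquiv.ext fun v => ?_
        show g.1 (c.1 v) = c.1 (g.1 v)
        rw [hcs, hcs, map_smul]
      · rw [QuadraticMap.polar, add_zero, QuadraticMap.map_zero, sub_self, sub_zero]
      · have h6 : sE (tq F K) 0 = 1 := by
          have := sE_add (tq F K) 0 0
          rw [add_zero] at this
          exact mul_left_cancel (this.symm.trans (mul_one _).symm)
        rw [h6, mul_one]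
  · exact absurd c.2 (by rw [hs]; exact fun h => swap_not_mem h)

/-- the trace form on `K × K` is hyperbolic -/
theorem isoQ_tq [Finite F] [Finite K] {n : ℕ} (hn : finrank F K = n) : IsoQ (tq F K) (plusForm n F) := by
  classical
  have hfd : FiniteDimensional F K := inferInstance
  let b : Basis (Fin n) F K := finBasisOfFinrankEq F K hn
  have hB := traceForm_nondegenerate F K
  let b' : Basis (Fin n) F K := (Algebra.traceForm F K).dualBasis hB b
  refine ⟨(LinearEquiv.prodCongr b.equivFun b'.equivFun).trans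
    (LinearEquiv.sumArrowLequivProdArrow (Fin n) (Fin n) F F).symm, fun p => ?_⟩
  have h1 : ∀ v : Fin n ⊕ Fin n → F, plusForm n F v = ∑ i : Fin n, v (.inl i) * v (.inr i) := fun v => by
    rw [← quadFormPlus_apply, ← coe_plusForm]
  rw [h1, tq_apply]
  have h2 : ∀ i, b'.repr p.2 i = Algebra.trace F K (p.2 * b i) := fun i => by
    rw [LinearMap.BilinForm.dualBasis_repr_apply, Algebra.traceForm_apply]
  have h3 : ∑ i : Fin n, b.repr p.1 i * Algebra.trace F K (p.2 * b i) = Algebra.trace F K (p.1 * p.2) := by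
    have h4 : ∑ i : Fin n, b.repr p.1 i * Algebra.trace F K (p.2 * b i) =
        Algebra.trace F K (p.2 * ∑ i : Fin n, b.repr p.1 i • b i) := by
      rw [Finset.mul_sum, map_sum]
      refine Finset.sum_congr rfl fun i _ => ?_
      rw [mul_smul_comm, map_smul, smul_eq_mul]
    rw [h4, b.sum_repr, mul_comm]
  rw [← h3]
  refine Finset.sum_congr rfl fun i _ => ?_
  rw [← h2]
  rfl

/-- **The row `POmega⁺`.** -/
theorem row_oplus {F : Type} [Field F] [Fintype F] {m : ℕ} (hm : 4 ≤ m) :
    Row (POmega F (quadFormPlus m F)) := by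
  obtain ⟨n, rfl⟩ : ∃ n, m = n + 1 := ⟨m - 1, by omega⟩
  have hn0 : NeZero n := ⟨by omega⟩
  obtain ⟨p, hpc⟩ := CharP.exists F
  have hp : Fact p.Prime := ⟨CharP.char_is_prime F p⟩
  have hfin : finrank F (FiniteField.Extension F p n) = n := FiniteField.finrank_extension F p n
  have h1 := row_K (F := F) (K := FiniteField.Extension F p n) (by rw [hfin]; omega)
  have h2 : IsoQ (HQ (tq F (FiniteField.Extension F p n))) (plusForm (n + 1) F) :=
    (isoQ_tq hfin).hq.trans (isoQ_plus n).symm
  obtain ⟨e1⟩ := h2.equiv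
  have hG : Good (plusForm (n + 1) F) := good_of_finite (nondeg_plusForm _ _) (by
    rw [finrank_pi, Fintype.card_sum, Fintype.card_fin]
    omega)
  let e2 : E (plusForm (n + 1) F) ≃* Cfsg.Omega F ⇑(plusForm (n + 1) F) :=
    ((omegaEquiv (plusForm (n + 1) F)).trans (MulEquiv.subgroupCongr hG.commutator_eq_E)).symm
  rw [← coe_plusForm]
  have := Fintype.ofFinite (FiniteField.Extension F p n)
  have h3 := Cfsg.Agent.H93.CJ.finite_E (tq F (FiniteField.Extension F p n))
  exact Row.of_equiv (quotientCenterCongr (e1.trans e2)) h1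

/-- **The row `POmega⁺`** (predicate form). -/
theorem row_isPOmegaPlus {S : Type*} [Group S] [Finite S] (h : IsPOmegaPlus S) : Row S := by
  obtain ⟨F, _, _, m, hm, ⟨e⟩⟩ := h
  have : Finite (POmega F (quadFormPlus m F)) := Finite.of_equiv S e.toEquiv
  exact Row.of_equiv e.symm (row_oplus hm)

end Cfsg.Agent.H530.CJ

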